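import Cfsg.Agent.Lib.HallJanko.PrimChecks
import Cfsg.Agent.Lib.HallJanko.CentData

/-! # Kernel checks for the centralizer of a reflection -/

set_option autoImplicit false
set_option maxRecDepth 1000000
set_option Elab.async false

namespace Cfsg.Agent.Lib.HallJanko

open IQ

/-- A word in the two stabiliser elements, on the 100 points. -/
def wordImage : List ℕ → ℕ → ℕ
  | [], i => i
  | a :: L, i => comp4' (stabWords.getD a (0, 0, 0, 0)) (wordImage L i)

/-- The action of a stabiliser element on the five blocks. -/
def blockImage (a b : ℕ) : ℕ := (blockImages.getD a []).getD b 0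

/-- A word on the five blocks. -/
def wordBlock : List ℕ → ℕ → ℕ
  | [], i => i
  | a :: L, i => blockImage a (wordBlock L i)

theorem blocks_check :
    (blockTable.length == 5 && (List.range 2).all fun a => (List.range 5).all fun b =>
      let x := im9 (stabPacked.getD a 0) (blockTable.getD b (0, 0)).1
      let y := im9 (stabPacked.getD a 0) (blockTable.getD b (0, 0)).2
      let c := blockTable.getD (blockImage a b) (0, 0)
      decide (blockImage a b < 5) && ((x == c.1 && y == c.2) || (x == c.2 && y == c.1))) = true := by
  decide +kernel

theorem block_distinct_check :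
    ((List.range 5).all fun b =>
      decide ((blockTable.getD b (0, 0)).1 < 315) && decide ((blockTable.getD b (0, 0)).2 < 315) &&
        decide ((blockTable.getD b (0, 0)).1 ≠ (blockTable.getD b (0, 0)).2) &&
        (List.range 5).all fun c => b == c ||
          ((blockTable.getD b (0, 0)).1 != (blockTable.getD c (0, 0)).1 &&
           (blockTable.getD b (0, 0)).1 != (blockTable.getD c (0, 0)).2)) = true := by
  decide +kernel

theorem kerOK_check :
    (kerPacked.all okP && kerPacked.length == 32 &&
      idxList.all (fun i => im (kerPacked.getD 0 0) i == i) &&
      (List.range 32).all (fun i => i == 0 ||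
        let c := kerParent.getD i 0
        decide (c &&& 7 < 5) && decide (c >>> 3 < i) && idxList.all fun p =>
          im (kerPacked.getD i 0) p == wordImage (kerWords.getD (c &&& 7) []) (im (kerPacked.getD (c >>> 3) 0) p)) &&
      (kerWords.length == 5 && kerWords.all fun w => (w.all fun a => decide (a < 2)) &&
        (List.range 5).all fun b => wordBlock w b == b)) = true := by
  decide +kernel

theorem kerDistinct_check :
    ((List.range 32).all fun i => (List.range 32).all fun j => i == j ||
      [0, 1, 2, 3].any fun p => im (kerPacked.getD i 0) p != im (kerPacked.getD j 0) p) = true := by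
  decide +kernel

theorem kerMul_check :
    ((List.range 32).all fun i => (List.range 32).all fun j =>
      let m := kerMul.getD (32 * i + j) 0
      decide (m < 32) && [0, 1, 2, 3].all fun p =>
        im (kerPacked.getD m 0) p == im (kerPacked.getD i 0) (im (kerPacked.getD j 0) p)) = true := by
  decide +kernel

/-- The centre has order two; commutators and squares lie in it and it is met by both. -/
theorem kerStruct_check :
    (decide (kerCenter < 32) && kerCenter != 0 &&
      (List.range 32).all (fun i => i == 0 || i == kerCenter ||
        (List.range 32).any fun j => kerMul.getD (32 * i + j) 0 != kerMul.getD (32 * j + i) 0) &&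
      (List.range 32).all (fun j => kerMul.getD (32 * kerCenter + j) 0 == kerMul.getD (32 * j + kerCenter) 0) &&
      (List.range 32).all (fun i => kerMul.getD (33 * i) 0 == 0 || kerMul.getD (33 * i) 0 == kerCenter) &&
      (List.range 32).all (fun i => (List.range 32).all fun j =>
        kerMul.getD (32 * i + j) 0 == kerMul.getD (32 * j + i) 0 ||
          kerMul.getD (32 * i + j) 0 == kerMul.getD (32 * kerMul.getD (32 * j + i) 0 + kerCenter) 0) &&
      decide (kerPair.1 < 32) && decide (kerPair.2 < 32) &&
      kerMul.getD (32 * kerPair.1 + kerPair.2) 0 != kerMul.getD (32 * kerPair.2 + kerPair.1) 0 &&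
      decide (kerRoot < 32) && kerMul.getD (33 * kerRoot) 0 == kerCenter) = true := by
  decide +kernel

theorem image_check :
    ((imageFive ++ imageThree).all (fun a => decide (a < 2)) &&
      (List.range 5).all (fun b =>
        wordBlock (imageFive ++ imageFive ++ imageFive ++ imageFive ++ imageFive) b == b &&
        wordBlock (imageThree ++ imageThree ++ imageThree) b == b) &&
      (List.range 5).any (fun b => wordBlock imageFive b != b) &&
      (List.range 5).any (fun b => wordBlock imageThree b != b)) = true := by
  decide +kernel

theorem distinct_check :
    (distinctCert.length == 5 && (List.range 5).all fun n =>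
      let w := distinctCert.getD n (0, 0, 0, 0, 0)
      let r := subRep.getD n 0
      decide (r < 315) && decide (w.1 < 315) && decide (w.2.1 < 315) && decide (w.2.2.2.1 < 315) &&
        decide (w.2.2.1 < 120) && decide (w.2.2.2.2 < 120) && w.2.1 != w.2.2.2.1 &&
        decide (refl8 (lineAt 0) (lineAt w.1)
          = mapV (fun s => ((unitAt w.2.2.1).prod s).smul 4) (lineAt w.2.1)) &&
        decide (refl8 (lineAt r) (lineAt w.1)
          = mapV (fun s => ((unitAt w.2.2.2.2).prod s).smul 4) (lineAt w.2.2.2.1))) = true := by
  decide +kernel

end Cfsg.Agent.Lib.HallJanko
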