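import Cfsg.Agent.Lib.HallJanko.Simple
import Cfsg.Agent.Lib.HallJanko.CentChecks
import Cfsg.Agent.Lib.PGroupFrattini
import Cfsg.Prelude.Def_Transfer

/-! # The centralizer of a reflection in `J₂` is `2^{1+4}.A₅` -/

set_option autoImplicit false
set_option maxRecDepth 100000

namespace Cfsg.Agent.Lib.HallJanko

open Cfsg.Spor

/-- Line 0. -/
def zero315 : Fin 315 := ⟨0, by norm_num⟩

theorem mem_twoJ2 {f : Equiv.Perm icoLeech} (h : f ∈ Subgroup.closure (Set.range genRefl)) : f ∈ twoJ2 := by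
  rw [twoJ2_eq]; exact h

/-- The element of `G315` induced by the reflection in line `i`. -/
noncomputable def lineElt (i : Fin 315) : G315 :=
  ⟨phi ⟨(line_spec i i.2).2.choose, mem_twoJ2 (line_spec i i.2).2.choose_spec.1⟩, by
    rw [← phi_range]; exact ⟨_, rfl⟩⟩

theorem lineElt_eq {f : Equiv.Perm icoLeech} (hf : f ∈ twoJ2) {i : Fin 315}
    (h : ∀ x : icoLeech, (f x : QV) = qrefl (line i) x) : phi ⟨f, hf⟩ = (lineElt i).1 := by
  show phi _ = phi _
  congr 1
  exact Subtype.ext (Equiv.ext fun x => Subtype.ext ((h x).trans ((line_spec i i.2).2.choose_spec.2 x).symm))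

theorem lineElt_conj (σ : G315) (i : Fin 315) : σ * lineElt i * σ⁻¹ = lineElt (σ.1 i) := by
  obtain ⟨σ, hσ⟩ := σ
  obtain ⟨g, rfl⟩ : σ ∈ phi.range := by rw [phi_range]; exact hσ
  have hs := (line_spec i i.2).2.choose_spec
  have ht := (line_spec (phi g i) (phi g i).2).2.choose_spec
  have := congrArg phi (phi_conj_line (mem_twoJ2 hs.1) hs.2 g (mem_twoJ2 ht.1) ht.2)
  rw [map_mul, map_mul, map_inv] at this
  exact Subtype.ext this

theorem subTree_reach : ∀ (n : ℕ) (j : Fin 315), j.val ≠ 0 → subTree.getD j.val 0 >>> 11 = n →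
    ∃ σ : G315, σ.1 zero315 = zero315 ∧ ∃ r ∈ subRep, ((σ.1 j : Fin 315) : ℕ) = r := by
  have ht := subTree_check
  simp only [List.all_eq_true, List.mem_range, Bool.or_eq_true, beq_iff_eq] at ht
  intro n
  induction n using Nat.strong_induction_on with
  | _ n ih =>
    intro j hj0 hn
    have := (ht j j.2).resolve_left hj0
    split_ifs at this with hd
    · exact ⟨1, rfl, j, List.contains_iff_mem.1 this, rfl⟩
    · simp only [Bool.and_eq_true, decide_eq_true_eq, bne_iff_ne, beq_iff_eq] at this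
      obtain ⟨⟨⟨⟨ha, hq0⟩, hq⟩, hdep⟩, him⟩ := this
      obtain ⟨τ, -, hτ⟩ := exists_stab _ ha
      obtain ⟨σ, hσ0, r, hr, hσr⟩ := ih _ (hn ▸ hdep) ⟨_, hq⟩ hq0 rfl
      have e0 : (τ⁻¹).1 zero315 = zero315 := by
        rw [Subgroup.coe_inv, Equiv.Perm.inv_def, Equiv.symm_apply_eq]
        exact Fin.ext ((hτ zero315).trans (stab_fix ha)).symm
      have ej : (τ⁻¹).1 j = ⟨_, hq⟩ := by
        rw [Subgroup.coe_inv, Equiv.Perm.inv_def, Equiv.symm_apply_eq]
        exact Fin.ext ((hτ ⟨_, hq⟩).trans him).symm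
      refine ⟨σ * τ⁻¹, ?_, r, hr, ?_⟩
      · rw [Subgroup.coe_mul, Equiv.Perm.mul_apply, e0, hσ0]
      · rw [Subgroup.coe_mul, Equiv.Perm.mul_apply, ej, hσr]

theorem lineElt_move {i : Fin 315} {k : ℕ} (hk : k < 315) {m u : ℕ} (hm : m < 315) (hu : u < 120)
    (h : refl8 (lineAt i) (lineAt k) = mapV (fun s => ((unitAt u).prod s).smul 4) (lineAt m)) :
    (lineElt i).1 ⟨k, hk⟩ = ⟨m, hm⟩ := by
  obtain ⟨hU, -, hu2⟩ := unit_spec hu
  have hs := (line_spec i i.2).2.choose_spec
  obtain ⟨A, hA, hgA, hAl⟩ := ext_phi ⟨(line_spec i i.2).2.choose, mem_twoJ2 hs.1⟩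
  obtain ⟨v, hv, hve⟩ := hAl ⟨k, hk⟩
  have h4 := congrArg evV h
  rw [show mapV (fun s => ((unitAt u).prod s).smul 4) (lineAt m)
    = mapV (IQ.smul 4) (mapV (fun s => (unitAt u).prod s) (lineAt m)) from rfl,
    evV_refl8, evV_smul, evV_prod, smul_smul] at h4
  norm_num at h4
  have e : scal v (line ((lineElt i).1 ⟨k, hk⟩ : Fin 315)) = scal (ev (unitAt u)) (line m) := by
    have h5 : A (line k) = qrefl (line i) (line k) :=
      (hgA ⟨_, (line_spec k hk).1⟩).symm.trans (hs.2 _)
    rw [show line m = evV (lineAt m) from rfl, ← h4]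
    exact hve.symm.trans h5
  refine (Fin.ext (line_inj hm ((lineElt i).1 ⟨k, hk⟩).2 (c := star v * ev (unitAt u)) ?_ ?_)).symm
  · have hv' : v * star v = 1 := by rw [Quaternion.self_mul_star, ← Quaternion.star_mul_self, hv]
    rw [star_mul, star_star, mul_assoc, ← mul_assoc v, hv', one_mul, hu2]
  · rw [← scal_scal, ← e, scal_scal, hv, scal_one]

theorem lineElt_zero_inj {j : Fin 315} (h : lineElt j = lineElt zero315) : j = zero315 := by
  by_contra hne
  obtain ⟨σ, hσ0, r, hr, hσr⟩ := subTree_reach _ j (fun e => hne (Fin.ext e)) rfl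
  have h' : lineElt (σ.1 j) = lineElt zero315 := by
    rw [← lineElt_conj, h, lineElt_conj, hσ0]
  obtain ⟨n, hn, hnr⟩ := List.getElem_of_mem hr
  have hb := block_check
  simp only [Bool.and_eq_true, beq_iff_eq] at hb
  have hd := distinct_check
  simp only [Bool.and_eq_true, List.all_eq_true, List.mem_range] at hd
  have := hd.2 n (hb.1 ▸ hn)
  simp only [Bool.and_eq_true, decide_eq_true_eq, bne_iff_ne] at this
  rw [List.getD_eq_getElem _ _ hn, hnr] at this
  obtain ⟨⟨⟨⟨⟨⟨⟨⟨hr', hk⟩, hm⟩, hm'⟩, hu⟩, hu'⟩, hne'⟩, e1⟩, e2⟩ := this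
  have h1 := lineElt_move (i := zero315) hk hm hu e1
  have h2 := lineElt_move (i := ⟨r, hr'⟩) hk hm' hu' e2
  rw [show (σ.1 j) = ⟨r, hr'⟩ from Fin.ext hσr] at h'
  rw [h', h1] at h2
  exact hne' (Fin.mk.inj h2)

/-- The stabiliser of line 0. -/
noncomputable def stab0 : Subgroup G315 := (MulAction.stabilizer (Equiv.Perm (Fin 315)) zero315).comap G315.subtype

theorem centralizer_lineElt : Subgroup.centralizer ({lineElt zero315} : Set G315) = stab0 := by
  ext σ
  rw [Subgroup.mem_centralizer_singleton_iff]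
  show _ ↔ σ.1 zero315 = zero315
  constructor
  · intro h
    apply lineElt_zero_inj
    rw [← lineElt_conj, h, mul_inv_cancel_right]
  · intro h
    have := lineElt_conj σ zero315
    rw [h, mul_inv_eq_iff_eq_mul] at this
    exact this

theorem transitive315 (i : Fin 315) : ∃ σ : G315, σ.1 i = zero315 := by
  obtain ⟨τ, hτ, h1⟩ := G315_to_root _ i rfl
  obtain ⟨τ', hτ', h2⟩ := G315_to_root _ zero315 rfl
  exact ⟨⟨τ'⁻¹ * τ, mul_mem (inv_mem hτ') hτ⟩, by
    show (τ'⁻¹ * τ) i = _
    rw [Equiv.Perm.mul_apply, h1, ← h2, Equiv.Perm.inv_def, Equiv.symm_apply_apply]⟩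

theorem card_G315 : Nat.card G315 = 604800 := (Nat.card_congr j2Equiv.toEquiv).symm.trans card_J2

theorem card_stab0 : Nat.card stab0 = 1920 := by
  letI : MulAction G315 (Fin 315) := MulAction.compHom _ G315.subtype
  have hst : stab0 = MulAction.stabilizer G315 zero315 := rfl
  have horb : MulAction.orbit G315 zero315 = Set.univ :=
    Set.eq_univ_of_forall fun i => by
      obtain ⟨σ, hσ⟩ := transitive315 i
      refine ⟨σ⁻¹, ?_⟩
      show (σ⁻¹).1 zero315 = i
      rw [← hσ, Subgroup.coe_inv, Equiv.Perm.inv_def, Equiv.symm_apply_apply]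
  have h := MulAction.orbitEquivQuotientStabilizer G315 zero315
  have hi : (MulAction.stabilizer G315 zero315).index = 315 := by
    rw [Subgroup.index, ← Nat.card_congr h, horb, Nat.card_coe_set_eq, Set.ncard_univ, Nat.card_fin]
  have := Subgroup.card_mul_index (MulAction.stabilizer G315 zero315)
  rw [hi, card_G315, ← hst] at this
  omega

/-- The two generators. -/
noncomputable def stabElt (a : Fin 2) : G315 := (exists_stab a a.2).choose

theorem stabElt_point (a : Fin 2) (p : Fin 100) :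
    ((psi (stabElt a) p : Fin 100) : ℕ) = comp4' (stabWords.getD a (0, 0, 0, 0)) p :=
  (exists_stab a a.2).choose_spec.1 p

theorem stabElt_line (a : Fin 2) (i : Fin 315) :
    (((stabElt a).1 i : Fin 315) : ℕ) = im9 (stabPacked.getD a 0) i :=
  (exists_stab a a.2).choose_spec.2 i

/-- The two endpoints of block `b`. -/
def blockEnd (b : Fin 5) : Fin 315 × Fin 315 :=
  have h := List.all_eq_true.1 block_distinct_check b (List.mem_range.2 b.2)
  have h' : (blockTable.getD b (0, 0)).1 < 315 ∧ (blockTable.getD b (0, 0)).2 < 315 := by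
    simp only [Bool.and_eq_true, decide_eq_true_eq] at h; exact ⟨h.1.1.1, h.1.1.2⟩
  (⟨_, h'.1⟩, ⟨_, h'.2⟩)

/-- `σ` maps blocks as `τ`. -/
def BRel (σ : Equiv.Perm (Fin 315)) (τ : Equiv.Perm (Fin 5)) : Prop :=
  ∀ b, (σ (blockEnd b).1 = (blockEnd (τ b)).1 ∧ σ (blockEnd b).2 = (blockEnd (τ b)).2) ∨
    (σ (blockEnd b).1 = (blockEnd (τ b)).2 ∧ σ (blockEnd b).2 = (blockEnd (τ b)).1)

theorem BRel.unique {σ : Equiv.Perm (Fin 315)} {τ τ' : Equiv.Perm (Fin 5)} (h : BRel σ τ) (h' : BRel σ τ') :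
    τ = τ' := by
  ext b
  by_contra hne
  have hd := List.all_eq_true.1 block_distinct_check (τ b) (List.mem_range.2 (τ b).2)
  simp only [Bool.and_eq_true, decide_eq_true_eq, List.all_eq_true, List.mem_range, Bool.or_eq_true,
    beq_iff_eq, bne_iff_ne] at hd
  obtain ⟨d1, d2⟩ := (hd.2 (τ' b) (τ' b).2).resolve_left hne
  have hd' := List.all_eq_true.1 block_distinct_check (τ' b) (List.mem_range.2 (τ' b).2)
  simp only [Bool.and_eq_true, decide_eq_true_eq, List.all_eq_true, List.mem_range, Bool.or_eq_true,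
    beq_iff_eq, bne_iff_ne] at hd'
  obtain ⟨d3, d4⟩ := (hd'.2 (τ b) (τ b).2).resolve_left (Ne.symm hne)
  rcases h b with ⟨a1, a2⟩ | ⟨a1, a2⟩ <;> rcases h' b with ⟨c1, c2⟩ | ⟨c1, c2⟩
  · exact d1 (congrArg Fin.val (a1.symm.trans c1))
  · exact d2 (congrArg Fin.val (a1.symm.trans c1))
  · exact d4 (congrArg Fin.val (c1.symm.trans a1))
  · exact d1 (congrArg Fin.val (a2.symm.trans c2))

theorem BRel.mul {σ σ' : Equiv.Perm (Fin 315)} {τ τ' : Equiv.Perm (Fin 5)} (h : BRel σ τ) (h' : BRel σ' τ') :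
    BRel (σ * σ') (τ * τ') := by
  intro b
  simp only [Equiv.Perm.mul_apply]
  rcases h' b with ⟨c1, c2⟩ | ⟨c1, c2⟩ <;> rcases h (τ' b) with ⟨a1, a2⟩ | ⟨a1, a2⟩ <;>
    rw [c1, c2, a1, a2] <;> simp

theorem brel_one : BRel 1 1 := fun _ => Or.inl ⟨rfl, rfl⟩

theorem blockImage_lt (a : Fin 2) (b : Fin 5) : blockImage a b < 5 := by
  have hc := blocks_check
  simp only [Bool.and_eq_true, List.all_eq_true, List.mem_range, decide_eq_true_eq] at hc
  exact (hc.2 a a.2 b b.2).1

def blockFun (a : Fin 2) (b : Fin 5) : Fin 5 := ⟨blockImage a b, blockImage_lt a b⟩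

theorem blockFun_bij (a : Fin 2) : Function.Bijective (blockFun a) := by
  have h : ∀ a : Fin 2, Function.Injective fun b : Fin 5 => blockImage a b := by decide +kernel
  exact Finite.injective_iff_bijective.1 fun x y e => h a (congrArg Fin.val e)

noncomputable def blockPerm (a : Fin 2) : Equiv.Perm (Fin 5) := Equiv.ofBijective _ (blockFun_bij a)

theorem blockPerm_val (a : Fin 2) (b : Fin 5) : ((blockPerm a b : Fin 5) : ℕ) = blockImage a b := rfl

theorem brel_stab (a : Fin 2) : BRel (stabElt a).1 (blockPerm a) := by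
  intro b
  have hc := blocks_check
  simp only [Bool.and_eq_true, List.all_eq_true, List.mem_range, decide_eq_true_eq, Bool.or_eq_true,
    beq_iff_eq] at hc
  rcases (hc.2 a a.2 b b.2).2 with ⟨h1, h2⟩ | ⟨h1, h2⟩
  · exact Or.inl ⟨Fin.ext ((stabElt_line a _).trans h1), Fin.ext ((stabElt_line a _).trans h2)⟩
  · exact Or.inr ⟨Fin.ext ((stabElt_line a _).trans h1), Fin.ext ((stabElt_line a _).trans h2)⟩

/-- The subgroup generated by the two elements. -/
noncomputable def K0 : Subgroup G315 := Subgroup.closure (Set.range stabElt)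

theorem exists_brel (σ : K0) : ∃ τ, BRel σ.1.1 τ ∧ τ ∈ alternatingGroup (Fin 5) := by
  suffices h : ∀ σ ∈ K0, ∃ τ, BRel σ.1 τ ∧ τ ∈ alternatingGroup (Fin 5) from h _ σ.2
  intro σ hσ
  rw [K0, ← Subgroup.mem_toSubmonoid, Subgroup.closure_toSubmonoid_of_finite] at hσ
  induction hσ using Submonoid.closure_induction_left with
  | one => exact ⟨1, brel_one, one_mem _⟩
  | mul_left s hs y _ ih =>
    obtain ⟨a, rfl⟩ := hs
    obtain ⟨τ, h, hm⟩ := ih
    refine ⟨_, (brel_stab a).mul h, mul_mem ?_ hm⟩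
    have e : blockPerm a = if a = 0 then List.formPerm [(0 : Fin 5), 1, 2, 4, 3] else List.formPerm [(0 : Fin 5), 4, 3] * 1 := by
      ext b
      rw [blockPerm_val]
      revert a b
      decide +kernel
    rw [e, Equiv.Perm.mem_alternatingGroup]
    revert a
    decide +kernel

noncomputable def chi : K0 →* alternatingGroup (Fin 5) where
  toFun σ := ⟨(exists_brel σ).choose, (exists_brel σ).choose_spec.2⟩
  map_one' := Subtype.ext ((exists_brel 1).choose_spec.1.unique brel_one)
  map_mul' g h := Subtype.ext ((exists_brel (g * h)).choose_spec.1.unique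
    ((exists_brel g).choose_spec.1.mul (exists_brel h).choose_spec.1))

theorem brel_chi (σ : K0) : BRel σ.1.1 (chi σ).1 := (exists_brel σ).choose_spec.1

/-- The value of a word. -/
noncomputable def wordElt : List ℕ → G315
  | [] => 1
  | a :: L => (if h : a < 2 then stabElt ⟨a, h⟩ else 1) * wordElt L

theorem wordElt_mem : ∀ L, wordElt L ∈ K0
  | [] => one_mem _
  | a :: L => by
    rw [wordElt]
    refine mul_mem ?_ (wordElt_mem L)
    split_ifs with h
    · exact Subgroup.subset_closure ⟨_, rfl⟩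
    · exact one_mem _

theorem wordElt_point : ∀ L : List ℕ, (∀ a ∈ L, a < 2) → ∀ p : Fin 100,
    ((psi (wordElt L) p : Fin 100) : ℕ) = wordImage L p
  | [], _, p => by rw [wordElt, map_one]; rfl
  | a :: L, h, p => by
    have ha : a < 2 := h a (by simp)
    rw [wordElt, dif_pos ha, map_mul, Equiv.Perm.mul_apply, stabElt_point, wordImage,
      wordElt_point L (fun b hb => h b (by simp [hb]))]

theorem wordElt_chi : ∀ L : List ℕ, (∀ a ∈ L, a < 2) → ∀ b : Fin 5,
    (((chi ⟨wordElt L, wordElt_mem L⟩).1 b : Fin 5) : ℕ) = wordBlock L b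
  | [], _, b => by
    rw [show (⟨wordElt [], wordElt_mem []⟩ : K0) = 1 from rfl, map_one]; rfl
  | a :: L, h, b => by
    have ha : a < 2 := h a (by simp)
    have e : (⟨wordElt (a :: L), wordElt_mem _⟩ : K0)
        = ⟨stabElt ⟨a, ha⟩, Subgroup.subset_closure ⟨_, rfl⟩⟩ * ⟨wordElt L, wordElt_mem L⟩ :=
      Subtype.ext (by simp [wordElt, ha])
    have e2 : (chi ⟨stabElt ⟨a, ha⟩, Subgroup.subset_closure ⟨_, rfl⟩⟩).1 = blockPerm ⟨a, ha⟩ :=
      (brel_chi _).unique (brel_stab _)
    rw [e, map_mul, Subgroup.coe_mul, Equiv.Perm.mul_apply, e2, blockPerm_val, wordBlock,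
      wordElt_chi L (fun b hb => h b (by simp [hb]))]

theorem chi_surjective : Function.Surjective chi := by
  have hi := image_check
  simp only [Bool.and_eq_true, List.all_eq_true, List.any_eq_true, decide_eq_true_eq, List.mem_range,
    beq_iff_eq, bne_iff_ne, List.mem_append] at hi
  obtain ⟨⟨⟨hlt, hpow⟩, x5, hx5, hn5⟩, x3, hx3, hn3⟩ := hi
  set u := chi ⟨wordElt imageFive, wordElt_mem _⟩
  set v := chi ⟨wordElt imageThree, wordElt_mem _⟩
  have hw : ∀ L M, (∀ a ∈ L, a < 2) → (∀ a ∈ M, a < 2) → ∀ b, wordBlock (L ++ M) b = wordBlock L (wordBlock M b) := by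
    intro L M _ _ b
    induction L with
    | nil => rfl
    | cons a L ih => simp_all [wordBlock]
  have h5 := fun a ha => hlt a (Or.inl ha)
  have h3 := fun a ha => hlt a (Or.inr ha)
  have hu : ∀ b : Fin 5, ((u.1 b : Fin 5) : ℕ) = wordBlock imageFive b := wordElt_chi _ h5
  have hv : ∀ b : Fin 5, ((v.1 b : Fin 5) : ℕ) = wordBlock imageThree b := wordElt_chi _ h3
  have hu5 : orderOf u = 5 := by
    haveI : Fact (Nat.Prime 5) := ⟨by norm_num⟩
    refine orderOf_eq_prime ?_ fun h => hn5 ?_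
    · refine Subtype.ext (Equiv.ext fun b => Fin.ext ?_)
      have hh := (hpow b b.2).1
      simp only [List.append_assoc] at hh
      rw [hw _ _ h5 (by simp_all), hw _ _ h5 (by simp_all), hw _ _ h5 (by simp_all), hw _ _ h5 h5] at hh
      simp only [pow_succ, pow_zero, one_mul, Subgroup.coe_mul, Subgroup.coe_one, Equiv.Perm.one_apply, Equiv.Perm.mul_apply, hu]
      exact hh
    · rw [← hu ⟨x5, hx5⟩, h]; rfl
  have hv3 : orderOf v = 3 := by
    haveI : Fact (Nat.Prime 3) := ⟨by norm_num⟩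
    refine orderOf_eq_prime ?_ fun h => hn3 ?_
    · refine Subtype.ext (Equiv.ext fun b => Fin.ext ?_)
      have hh := (hpow b b.2).2
      simp only [List.append_assoc] at hh
      rw [hw _ _ h3 (by simp_all), hw _ _ h3 h3] at hh
      simp only [pow_succ, pow_zero, one_mul, Subgroup.coe_mul, Subgroup.coe_one, Equiv.Perm.one_apply, Equiv.Perm.mul_apply, hv]
      exact hh
    · rw [← hv ⟨x3, hx3⟩, h]; rfl
  have h15 : 15 ∣ Nat.card chi.range := by
    have a5 : orderOf (⟨u, ⟨_, rfl⟩⟩ : chi.range) = 5 := by rw [← Subgroup.orderOf_coe]; exact hu5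
    have a3 : orderOf (⟨v, ⟨_, rfl⟩⟩ : chi.range) = 3 := by rw [← Subgroup.orderOf_coe]; exact hv3
    have d5 := orderOf_dvd_natCard (⟨u, ⟨_, rfl⟩⟩ : chi.range)
    have d3 := orderOf_dvd_natCard (⟨v, ⟨_, rfl⟩⟩ : chi.range)
    rw [a5] at d5
    rw [a3] at d3
    exact Nat.Coprime.mul_dvd_of_dvd_of_dvd (by norm_num : Nat.Coprime 5 3) d5 d3
  have hA : Nat.card (alternatingGroup (Fin 5)) = 60 := by
    rw [nat_card_alternatingGroup, Nat.card_fin]; rfl
  have hmul := Subgroup.card_mul_index chi.range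
  rw [hA] at hmul
  rw [← MonoidHom.range_eq_top]
  by_contra hne
  haveI : IsSimpleGroup (alternatingGroup (Fin 5)) := alternatingGroup.isSimpleGroup_five
  have hi4 : chi.range.index ≤ 4 := by
    have := Nat.le_of_dvd Nat.card_pos h15
    nlinarith
  letI : Fintype (alternatingGroup (Fin 5) ⧸ chi.range) := Fintype.ofFinite _
  rcases IsSimpleGroup.eq_bot_or_eq_top_of_normal _ (Subgroup.normalCore_normal chi.range) with hb | hb
  · have hker : (MulAction.toPermHom (alternatingGroup (Fin 5)) (alternatingGroup (Fin 5) ⧸ chi.range)).ker = ⊥ := by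
      rw [← Subgroup.normalCore_eq_ker, hb]
    have := Nat.card_le_card_of_injective _ (MonoidHom.ker_eq_bot_iff _ |>.1 hker)
    rw [hA, Nat.card_perm] at this
    have h24 : (Nat.card (alternatingGroup (Fin 5) ⧸ chi.range)).factorial ≤ 24 :=
      Nat.factorial_le hi4
    omega
  · exact hne (top_le_iff.1 (hb.symm.le.trans (Subgroup.normalCore_le _)))

/-- The kernel elements. -/
noncomputable def kerP (i : Fin 32) : P100 := permOf (kerPacked.getD i 0)

theorem kerP_ok (i : Fin 32) : okP (kerPacked.getD i 0) = true := by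
  have hk := kerOK_check
  simp only [Bool.and_eq_true, beq_iff_eq] at hk
  exact List.all_eq_true.1 hk.1.1.1.1 _ (getD_mem (by rw [hk.1.1.1.2]; exact i.2))

theorem kerP_lift (i : Fin 32) : ∃ k : K0, chi k = 1 ∧ psi k.1 = kerP i := by
  suffices h : ∀ n (hn : n < 32), ∃ k : K0, chi k = 1 ∧ psi k.1 = kerP ⟨n, hn⟩ from h i i.2
  have hk := kerOK_check
  simp only [Bool.and_eq_true, List.all_eq_true, List.mem_range, Bool.or_eq_true, beq_iff_eq,
    decide_eq_true_eq] at hk
  obtain ⟨⟨⟨⟨-, -⟩, hid⟩, hpar⟩, hwl, hw⟩ := hk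
  intro n
  induction n using Nat.strong_induction_on with
  | _ n ih =>
    intro hn
    rcases hpar n hn with rfl | ⟨⟨h5, hlt⟩, he⟩
    · refine ⟨1, map_one _, ?_⟩
      rw [Subgroup.coe_one, map_one]
      ext p
      rw [kerP, permOf_apply (kerP_ok _)]
      exact (hid p (List.mem_range.2 p.2)).symm
    · obtain ⟨k, hk1, hk2⟩ := ih _ hlt (hlt.trans hn)
      set w := kerWords.getD (kerParent.getD n 0 &&& 7) [] with hwdef
      have hwm : w ∈ kerWords := by
        rw [hwdef, List.getD_eq_getElem _ _ (hwl ▸ h5)]; exact List.getElem_mem _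
      obtain ⟨hw2, hw5⟩ := hw w hwm
      refine ⟨⟨wordElt w, wordElt_mem w⟩ * k, ?_, ?_⟩
      · rw [map_mul, hk1, mul_one]
        exact Subtype.ext (Equiv.ext fun b => Fin.ext ((wordElt_chi w hw2 b).trans (hw5 b b.2)))
      · rw [Subgroup.coe_mul, map_mul, hk2]
        ext p
        rw [Equiv.Perm.mul_apply, wordElt_point w hw2, kerP, kerP, permOf_apply (kerP_ok _),
          permOf_apply (kerP_ok _)]
        exact (he p (List.mem_range.2 p.2)).symm

noncomputable def kerK (i : Fin 32) : chi.ker := ⟨(kerP_lift i).choose, (kerP_lift i).choose_spec.1⟩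

theorem psi_kerK (i : Fin 32) : psi (kerK i).1.1 = kerP i := (kerP_lift i).choose_spec.2

theorem kerK_injective : Function.Injective kerK := by
  intro i j h
  have he : kerP i = kerP j := by rw [← psi_kerK, ← psi_kerK, h]
  by_contra hne
  have hd := List.all_eq_true.1 (List.all_eq_true.1 kerDistinct_check i (List.mem_range.2 i.2)) j (List.mem_range.2 j.2)
  simp only [Bool.or_eq_true, beq_iff_eq, List.any_eq_true, bne_iff_ne] at hd
  obtain ⟨p, hp, hp'⟩ := hd.resolve_left (fun e => hne (Fin.ext e))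
  have hp4 : p < 100 := by simp at hp; omega
  refine hp' ?_
  have h1 := congrArg (fun x : P100 => ((x ⟨p, hp4⟩ : Fin 100) : ℕ)) he
  simpa only [kerP, permOf_apply (kerP_ok i), permOf_apply (kerP_ok j)] using h1

theorem K0_le : K0 ≤ stab0 := by
  refine (Subgroup.closure_le _).2 ?_
  rintro _ ⟨a, rfl⟩
  exact Fin.ext ((stabElt_line a zero315).trans (stab_fix a.2))

theorem card_ker_chi : K0 = stab0 ∧ Nat.card chi.ker = 32 := by
  have h1 := Subgroup.card_mul_index chi.ker
  rw [Subgroup.index_ker, MonoidHom.range_eq_top.2 chi_surjective, Subgroup.card_top] at h1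
  have hA : Nat.card (alternatingGroup (Fin 5)) = 60 := by
    rw [nat_card_alternatingGroup, Nat.card_fin]; rfl
  rw [hA] at h1
  have h2 : 32 ≤ Nat.card chi.ker := by
    simpa using Nat.card_le_card_of_injective _ kerK_injective
  have h3 : Nat.card K0 ≤ 1920 := card_stab0 ▸ Subgroup.card_le_of_le K0_le
  exact ⟨Subgroup.eq_of_le_of_card_ge K0_le (by rw [card_stab0]; omega), by omega⟩

theorem kerK_surjective : Function.Surjective kerK := by
  letI : Fintype chi.ker := Fintype.ofFinite _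
  have : Function.Bijective kerK := (Fintype.bijective_iff_injective_and_card _).2 ⟨kerK_injective, by
    rw [Fintype.card_fin, ← Nat.card_eq_fintype_card, card_ker_chi.2]⟩
  exact this.2

def kmul (i j : Fin 32) : Fin 32 :=
  ⟨kerMul.getD (32 * i.val + j.val) 0, by
    have h := List.all_eq_true.1 (List.all_eq_true.1 kerMul_check i (List.mem_range.2 i.2)) j (List.mem_range.2 j.2)
    simp only [Bool.and_eq_true, decide_eq_true_eq] at h
    exact h.1⟩

theorem kerK_mul (i j : Fin 32) : kerK i * kerK j = kerK (kmul i j) := by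
  have h := List.all_eq_true.1 (List.all_eq_true.1 kerMul_check i (List.mem_range.2 i.2)) j (List.mem_range.2 j.2)
  simp only [Bool.and_eq_true, decide_eq_true_eq, List.all_eq_true, beq_iff_eq] at h
  apply Subtype.ext; apply Subtype.ext; apply psi_injective
  show psi ((kerK i).1.1 * (kerK j).1.1) = _
  rw [map_mul, psi_kerK, psi_kerK, psi_kerK]
  have hmem : ∀ i, kerP i ∈ G100 := fun i => by rw [← psi_kerK, ← psi_range]; exact ⟨_, rfl⟩
  obtain ⟨v, hv⟩ := mem_G100 (mul_mem (hmem i) (hmem j))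
  obtain ⟨w, hw⟩ := mem_G100 (hmem (kmul i j))
  rw [hv, hw]
  have key : ∀ p : Fin 100, p.val ∈ [0, 1, 2, 3] → elt v p = elt w p := fun p hp => by
    rw [← hv, ← hw]
    apply Fin.ext
    simp only [Equiv.Perm.mul_apply, kerP, permOf_apply (kerP_ok _)]
    exact (h.2 p hp).symm
  rw [elt_base (v := v) (w := w) ⟨key 0 (by simp), key 1 (by simp), key 2 (by simp), key 3 (by simp)⟩]

theorem kerK_zero : kerK 0 = 1 := by
  have h : kmul 0 0 = 0 := by decide +kernel
  have := kerK_mul 0 0
  rw [h] at this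
  exact mul_eq_right.1 this

theorem ker_isExtraspecial : Cfsg.IsExtraspecial 2 chi.ker := by
  have hk := kerStruct_check
  simp only [Bool.and_eq_true, List.all_eq_true, List.any_eq_true, List.mem_range, Bool.or_eq_true,
    decide_eq_true_eq, beq_iff_eq, bne_iff_ne] at hk
  obtain ⟨⟨⟨⟨⟨⟨⟨⟨⟨⟨hc, hc0⟩, hcen⟩, hcc⟩, hsq⟩, hcomm⟩, hp1⟩, hp2⟩, hpne⟩, hr⟩, hroot⟩ := hk
  set z := kerK ⟨kerCenter, hc⟩ with hz
  have hP : IsPGroup 2 chi.ker := IsPGroup.of_card (n := 5) card_ker_chi.2
  have hmem : ∀ x, x ∈ Subgroup.center chi.ker ↔ x = 1 ∨ x = z := by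
    intro x
    constructor
    · intro hx
      obtain ⟨i, rfl⟩ := kerK_surjective x
      rcases hcen i i.2 with (h | h) | ⟨j, hj, hne⟩
      · exact Or.inl (by rw [show i = 0 from Fin.ext h, kerK_zero])
      · exact Or.inr (by rw [hz]; exact congrArg kerK (Fin.ext h))
      · have := Subgroup.mem_center_iff.1 hx (kerK ⟨j, hj⟩)
        rw [kerK_mul, kerK_mul] at this
        exact absurd (congrArg Fin.val (kerK_injective this)).symm hne
    · rintro (rfl | rfl)
      · exact one_mem _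
      · rw [Subgroup.mem_center_iff]
        intro g
        obtain ⟨j, rfl⟩ := kerK_surjective g
        rw [hz, kerK_mul, kerK_mul]
        exact congrArg kerK (Fin.ext (hcc j j.2).symm)
  have hz1 : z ≠ 1 := by
    rw [← kerK_zero, hz]
    exact fun h => hc0 (congrArg Fin.val (kerK_injective h))
  have hcl : commutator chi.ker ≤ Subgroup.center chi.ker := by
    rw [commutator_def, Subgroup.commutator_le]
    intro a _ b _
    obtain ⟨i, rfl⟩ := kerK_surjective a
    obtain ⟨j, rfl⟩ := kerK_surjective b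
    rw [hmem]
    rcases hcomm i i.2 j j.2 with h | h
    · left
      rw [commutatorElement_eq_one_iff_mul_comm, kerK_mul, kerK_mul]
      exact congrArg kerK (Fin.ext h)
    · right
      have e : kerK i * kerK j = kerK j * kerK i * z := by
        rw [hz, kerK_mul, kerK_mul, kerK_mul]
        exact congrArg kerK (Fin.ext h)
      have hzc : ∀ g, g * z = z * g := Subgroup.mem_center_iff.1 ((hmem z).2 (Or.inr rfl))
      rw [commutatorElement_def, e, hzc]
      group
  have hzcomm : z ∈ commutator chi.ker := by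
    have h := Subgroup.commutator_mem_commutator (Subgroup.mem_top (kerK ⟨_, hp1⟩)) (Subgroup.mem_top (kerK ⟨_, hp2⟩))
    have h' := (hmem _).1 (hcl h)
    rcases h' with h1 | h1
    · rw [commutatorElement_eq_one_iff_mul_comm, kerK_mul, kerK_mul] at h1
      exact absurd (congrArg Fin.val (kerK_injective h1)) hpne
    · rw [commutator_def]; exact h1 ▸ h
  have hcen_le : Subgroup.center chi.ker ≤ commutator chi.ker := fun x hx => by
    rcases (hmem x).1 hx with rfl | rfl
    · exact one_mem _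
    · exact hzcomm
  haveI : Fact (Nat.Prime 2) := ⟨Nat.prime_two⟩
  have hce : commutator chi.ker = Subgroup.center chi.ker := le_antisymm hcl hcen_le
  refine ⟨⟨hP, le_antisymm ?_ ?_, hce⟩, ?_⟩
  · refine Lib.PGroupFrattini.frattini_le Nat.prime_two _ hcl fun x => ?_
    obtain ⟨i, rfl⟩ := kerK_surjective x
    rw [pow_two, kerK_mul, hmem]
    rcases hsq i i.2 with h | h
    · left
      rw [← kerK_zero]
      exact congrArg kerK (Fin.ext (by
        show kerMul.getD (32 * i.val + i.val) 0 = 0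
        rw [show 32 * i.val + i.val = 33 * i.val by ring]; exact h))
    · right
      rw [hz]
      exact congrArg kerK (Fin.ext (by
        show kerMul.getD (32 * i.val + i.val) 0 = kerCenter
        rw [show 32 * i.val + i.val = 33 * i.val by ring]; exact h))
  · rw [← hce]; exact Lib.PGroupFrattini.commutator_le_frattini hP
  · rw [← Nat.card_eq_two_iff.2 ⟨⟨1, one_mem _⟩, ⟨z, (hmem z).2 (Or.inr rfl)⟩,
      fun h => hz1 (congrArg Subtype.val h).symm, Set.eq_univ_of_forall fun x => by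
        rcases (hmem x.1).1 x.2 with h | h
        · exact Or.inl (Subtype.ext h)
        · exact Or.inr (Subtype.ext h)⟩]

end Cfsg.Agent.Lib.HallJanko

namespace Cfsg.Agent.Lib.HallJanko

open Cfsg.Spor

theorem extraspecial_of_equiv {P P' : Type*} [Group P] [Group P'] [Finite P] (e : P ≃* P')
    (h : Cfsg.IsExtraspecial 2 P) : Cfsg.IsExtraspecial 2 P' := by
  haveI : Fact (Nat.Prime 2) := ⟨Nat.prime_two⟩
  haveI : Finite P' := Finite.of_equiv _ e.toEquiv
  obtain ⟨⟨hP, hF, hC⟩, hZ⟩ := h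
  have hP' : IsPGroup 2 P' := hP.of_equiv e
  have hc : commutator P' = Subgroup.center P' := by
    have h1 : (commutator P).map e.toMonoidHom = commutator P' := by
      rw [commutator_def, Subgroup.map_commutator, Subgroup.map_top_of_surjective _ e.surjective,
        ← commutator_def]
    rw [← h1, hC]
    ext x
    constructor
    · rintro ⟨y, hy, rfl⟩
      rw [Subgroup.mem_center_iff]
      intro g
      obtain ⟨g, rfl⟩ := e.surjective g
      show e g * e y = e y * e g
      rw [← map_mul, ← map_mul, Subgroup.mem_center_iff.1 hy g]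
    · intro hx
      obtain ⟨y, rfl⟩ := e.surjective x
      refine ⟨y, Subgroup.mem_center_iff.2 fun g => e.injective ?_, rfl⟩
      rw [map_mul, map_mul]
      exact Subgroup.mem_center_iff.1 hx (e g)
  refine ⟨⟨hP', le_antisymm ?_ (hc ▸ Lib.PGroupFrattini.commutator_le_frattini hP'), hc⟩, ?_⟩
  · refine Lib.PGroupFrattini.frattini_le Nat.prime_two _ hc.le fun x => ?_
    obtain ⟨y, rfl⟩ := e.surjective x
    have hy : y ^ 2 ∈ Subgroup.center P := hF ▸ Lib.PGroupFrattini.pow_mem_frattini hP y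
    rw [← map_pow, Subgroup.mem_center_iff]
    intro g
    obtain ⟨g, rfl⟩ := e.surjective g
    rw [← map_mul, ← map_mul, Subgroup.mem_center_iff.1 hy g]
  · rw [← Nat.card_congr (Subgroup.centerCongr e).toEquiv, hZ]

theorem reflection_centralizer (f : Equiv.Perm icoLeech) (hf : IsIcoReflection f) (hfm : f ∈ twoJ2) :
    ∃ (Q : Subgroup ↥(Subgroup.centralizer ({(QuotientGroup.mk ⟨f, hfm⟩ : J2)} : Set J2))) (_ : Q.Normal),
      Nat.card Q = 32 ∧ Cfsg.IsExtraspecial 2 Q ∧
        Nonempty (↥(Subgroup.centralizer ({(QuotientGroup.mk ⟨f, hfm⟩ : J2)} : Set J2)) ⧸ Q ≃*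
          alternatingGroup (Fin 5)) := by
  obtain ⟨r, hr, hfr⟩ := hf
  obtain ⟨i, hi, c, -, hc, hce⟩ := exists_line r.2 hr
  obtain ⟨σ, hσ⟩ := transitive315 ⟨i, hi⟩
  have himg : j2Equiv (QuotientGroup.mk ⟨f, hfm⟩ : J2) = lineElt ⟨i, hi⟩ :=
    Subtype.ext ((j2Equiv_mk _).trans (lineElt_eq hfm fun x => by rw [hfr, hce, qrefl_scal hc]))
  let e : J2 ≃* G315 := j2Equiv.trans (MulAut.conj σ)
  have he : e (QuotientGroup.mk ⟨f, hfm⟩ : J2) = lineElt zero315 := by
    show σ * j2Equiv _ * σ⁻¹ = _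
    rw [himg, lineElt_conj, hσ]
  set C := Subgroup.centralizer ({(QuotientGroup.mk ⟨f, hfm⟩ : J2)} : Set J2)
  have hC : C.map e.toMonoidHom = K0 := by
    rw [card_ker_chi.1, ← centralizer_lineElt, ← he]
    ext x
    constructor
    · rintro ⟨y, hy, rfl⟩
      rw [Subgroup.mem_centralizer_singleton_iff]
      show e y * e _ = e _ * e y
      rw [← map_mul, ← map_mul, Subgroup.mem_centralizer_singleton_iff.1 hy]
    · intro hx
      obtain ⟨y, rfl⟩ := e.surjective x
      refine ⟨y, ?_, rfl⟩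
      rw [SetLike.mem_coe, Subgroup.mem_centralizer_singleton_iff]
      apply e.injective
      rw [map_mul, map_mul]
      exact Subgroup.mem_centralizer_singleton_iff.1 hx
  let eC : C ≃* K0 := (e.subgroupMap C).trans (MulEquiv.subgroupCongr hC)
  let χ : C →* alternatingGroup (Fin 5) := chi.comp eC.toMonoidHom
  have hker : χ.ker.map eC.toMonoidHom = chi.ker := by
    rw [show χ.ker = chi.ker.comap eC.toMonoidHom from rfl,
      Subgroup.map_comap_eq_self_of_surjective eC.surjective]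
  let eK : χ.ker ≃* chi.ker := (eC.subgroupMap χ.ker).trans (MulEquiv.subgroupCongr hker)
  refine ⟨χ.ker, inferInstance, (Nat.card_congr eK.toEquiv).trans card_ker_chi.2,
    extraspecial_of_equiv eK.symm ker_isExtraspecial, ⟨?_⟩⟩
  exact QuotientGroup.quotientKerEquivOfSurjective χ (chi_surjective.comp eC.surjective)

end Cfsg.Agent.Lib.HallJanko
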